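import Cfsg.Agent.H277.EM.Univ
import Cfsg.Agent.H588.UnfSpor
import Cfsg.Agent.Cit.ElevenFact
import Cfsg.Agent.OddHalf.D4.Spor.M2223
import Cfsg.Agent.UGT.EndJ1.Data
import Cfsg.Agent.KFacts.J3
import Cfsg.Agent.TypeM.FactsLy
import Cfsg.Agent.TypeM.FactsMcL
import Cfsg.Agent.KFacts.ON.OneClass
import Cfsg.Agent.MonsterX.ThOneClass

/-!
# S2243: sporadic groups with one class of involutions (helper759, after helper588)

`crow_m11`, `crow_m22`, `crow_m23`, `crow_j1`, `crow_j3`, `crow_mcl`, `crow_ly`, `crow_on`, `crow_th`.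
-/

set_option autoImplicit false

namespace Cfsg.Agent.H759.EM

open Subgroup Cfsg Cfsg.Agent.H277.MI Cfsg.Agent.H588.UnfSpor

universe u v

/-- one class of involutions, from a base point -/
theorem of_base {L : Type u} [Group L] (a : L)
    (ha : ∀ t : L, t * t = 1 → t ≠ 1 → ∃ g : L, g * a * g⁻¹ = t) : CRow L := by
  refine CRow.of_one_class fun x y hx hy => ?_
  obtain ⟨g, hg⟩ := ha x (sq_ne hx).1 (sq_ne hx).2
  obtain ⟨k, hk⟩ := ha y (sq_ne hy).1 (sq_ne hy).2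
  exact (isConj_iff.2 ⟨g, hg⟩ : IsConj a x).symm.trans (isConj_iff.2 ⟨k, hk⟩)

/-- one class of involutions, transported along an isomorphism -/
theorem of_equiv {L : Type u} [Group L] {X : Type v} [Group X] (e : L ≃* X)
    (hX : ∀ x y : X, orderOf x = 2 → orderOf y = 2 → IsConj x y) : CRow L := by
  refine CRow.of_one_class fun x y hx hy => ?_
  obtain ⟨g, hg⟩ := isConj_iff.1 (hX (e x) (e y) (by rw [MulEquiv.orderOf_eq, hx]) (by rw [MulEquiv.orderOf_eq, hy]))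
  refine isConj_iff.2 ⟨e.symm g, e.injective ?_⟩
  rw [map_mul, map_mul, map_inv, e.apply_symm_apply, hg]

/-- `M₁₁` -/
theorem crow_m11 {L : Type u} [Group L] [Finite L] [IsSimpleGroup L] (h : Cfsg.Spor.IsoM11 L) : CRow L := by
  refine CRow.of_one_class fun x y hx hy => ?_
  · obtain ⟨g, hg⟩ := Cfsg.Agent.Cit.ElevenFact.conj_of_sq h (sq_ne hx).1 (sq_ne hx).2 (sq_ne hy).1 (sq_ne hy).2
    exact isConj_iff.2 ⟨g, hg⟩

open Cfsg.Agent.OddHalf.D4.Spor in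
/-- `M₂₂` -/
theorem crow_m22 {L : Type u} [Group L] [Finite L] [IsSimpleGroup L] (h : Cfsg.Spor.IsoM22 L) : CRow L := by
  obtain ⟨e⟩ := h
  have hf := M2223.finite22
  refine of_equiv e fun x y hx hy => ?_
  · obtain ⟨g, hg⟩ := MathieuSyl.one_class Cfsg.Agent.Schreier.SylMTwentyTwo.T_le M2223.idx22 le_rfl x
      (sq_ne hx).1 (sq_ne hx).2
    obtain ⟨k, hk⟩ := MathieuSyl.one_class Cfsg.Agent.Schreier.SylMTwentyTwo.T_le M2223.idx22 le_rfl y
      (sq_ne hy).1 (sq_ne hy).2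
    exact (isConj_iff.2 ⟨g, hg⟩).symm.trans (isConj_iff.2 ⟨k, hk⟩)

open Cfsg.Agent.OddHalf.D4.Spor in
/-- `M₂₃` -/
theorem crow_m23 {L : Type u} [Group L] [Finite L] [IsSimpleGroup L] (h : Cfsg.Spor.IsoM23 L) : CRow L := by
  obtain ⟨e⟩ := h
  have hf := M2223.finite23
  refine of_equiv e fun x y hx hy => ?_
  · obtain ⟨g, hg⟩ := MathieuSyl.one_class M2223.T_le23 M2223.idx23 M2223.M22_le_M23 x (sq_ne hx).1 (sq_ne hx).2
    obtain ⟨k, hk⟩ := MathieuSyl.one_class M2223.T_le23 M2223.idx23 M2223.M22_le_M23 y (sq_ne hy).1 (sq_ne hy).2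
    exact (isConj_iff.2 ⟨g, hg⟩).symm.trans (isConj_iff.2 ⟨k, hk⟩)

/-- `J₁` -/
theorem crow_j1 {L : Type u} [Group L] [Finite L] [IsSimpleGroup L] (h : Cfsg.Spor.IsoJ1 L) : CRow L := by
  obtain ⟨e⟩ := h
  obtain ⟨D⟩ := Cfsg.Agent.UGT.EndJ1.Data.exists_dat
  refine of_equiv e fun x y hx hy => ?_
  · obtain ⟨g, hg⟩ := D.conj_t (sq_ne hx).1 (sq_ne hx).2
    obtain ⟨k, hk⟩ := D.conj_t (sq_ne hy).1 (sq_ne hy).2
    exact (isConj_iff.2 ⟨g, hg⟩).symm.trans (isConj_iff.2 ⟨k, hk⟩)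

/-- `J₃` -/
theorem crow_j3 {L : Type u} [Group L] [Finite L] [IsSimpleGroup L] (h : Cfsg.Spor.IsoJ3 L) : CRow L := by
  obtain ⟨-, z, Q, v, ρ, n, u, F⟩ := Cfsg.Agent.KFacts.J3.exists_facts h
  exact of_base z fun t ht ht1 => F.one t ht1 ht

/-- `McL` -/
theorem crow_mcl {L : Type u} [Group L] [Finite L] [IsSimpleGroup L] (h : Cfsg.Spor.IsoMcL L) : CRow L := by
  obtain ⟨-, -, hc, ⟨M⟩⟩ := Cfsg.Agent.TypeM.FactsMcL.facts h
  exact CRow.of_one_class (conj_mt M)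

/-- `Ly` -/
theorem crow_ly {L : Type u} [Group L] [Finite L] [IsSimpleGroup L] (h : Cfsg.Spor.IsoLy L) : CRow L := by
  obtain ⟨-, -, hc, ⟨M⟩⟩ := Cfsg.Agent.TypeM.FactsLy.facts h
  exact CRow.of_one_class (conj_mt M)

/-- `O'N` -/
theorem crow_on {L : Type u} [Group L] [Finite L] [IsSimpleGroup L] (h : Cfsg.Spor.IsoON L) : CRow L := by
  obtain ⟨e⟩ := h
  refine of_equiv e fun x y hx hy => ?_
  · exact (Cfsg.Agent.KFacts.ON.OneClass.one_class (sq_ne hx).1 (sq_ne hx).2).trans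
      (Cfsg.Agent.KFacts.ON.OneClass.one_class (sq_ne hy).1 (sq_ne hy).2).symm

/-- `Th` -/
theorem crow_th {L : Type u} [Group L] [Finite L] [IsSimpleGroup L] (h : Cfsg.Spor.IsoTh L) : CRow L := by
  obtain ⟨e⟩ := h
  exact of_equiv e Cfsg.Agent.MonsterX.ThOneClass.oneClass

end Cfsg.Agent.H759.EM
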